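import Cfsg.Agent.Lib.BrauerPairs.MaxPairs
import Cfsg.Agent.Lib.Blocks.GroupRing
import Mathlib.LinearAlgebra.Dual.Lemmas
import Mathlib.LinearAlgebra.FiniteDimensional.Lemmas
import Mathlib.Algebra.Module.ZMod
import Mathlib.FieldTheory.Finiteness

/-!
# Blocks of the least possible dimension

If a block of the group algebra with defect group `D` has dimension `|P|² / |D|`, `P` a Sylow
subgroup, it is the permutation module on `(P × P) / Δ D` for left and right multiplication. So a
`p`-regular element normalising a subgroup of `D` centralises it.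
-/

set_option autoImplicit false
set_option linter.style.haveILetI false
set_option linter.unusedSectionVars false

noncomputable section

namespace CfsgLib.RealChar.MinimalBlock

open MonoidAlgebra CfsgLib.BrauerPairs CfsgLib.Blocks

variable {k : Type*} [Field k]

section Fixed

variable {p : ℕ} [Fact p.Prime] [CharP k p] {Γ : Type*} [Group Γ] [Finite Γ]

/-- A `p`-group fixes a nonzero vector of an invariant subspace in characteristic `p`. -/
theorem exists_fixed_ne_zero (hΓ : IsPGroup p Γ) {V : Type*} [AddCommGroup V] [Module k V]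
    (ρ : Γ →* (V →ₗ[k] V)) {W : Submodule k V} (hW : W ≠ ⊥)
    (hinv : ∀ γ, ∀ w ∈ W, ρ γ w ∈ W) : ∃ w ∈ W, w ≠ 0 ∧ ∀ γ, ρ γ w = w := by
  classical
  obtain ⟨v, hv, hv0⟩ := W.exists_mem_ne_zero_of_ne_bot hW
  haveI : Module (ZMod p) V := AddCommGroup.zmodModule fun x => by
    rw [← Nat.cast_smul_eq_nsmul k, CharP.cast_eq_zero k p, zero_smul]
  set S : Submodule (ZMod p) V := Submodule.span (ZMod p) (Set.range fun γ => ρ γ v) with hS
  haveI : Module.Finite (ZMod p) ↥S :=
    Module.Finite.span_of_finite (ZMod p) (A := Set.range fun γ => ρ γ v) (Set.finite_range _)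
  haveI : Finite S := Module.finite_of_finite (ZMod p)
  have hvS : v ∈ S := Submodule.subset_span ⟨1, by simp⟩
  have hstable : ∀ γ, ∀ x ∈ S, ρ γ x ∈ S := by
    intro γ x hx
    induction hx using Submodule.span_induction with
    | mem y hy =>
      obtain ⟨δ, rfl⟩ := hy
      exact Submodule.subset_span ⟨γ * δ, by simp [map_mul]⟩
    | zero => simp
    | add y z _ _ ihy ihz => rw [map_add]; exact add_mem ihy ihz
    | smul c y _ ih =>
      rw [show ρ γ (c • y) = c • ρ γ y from ZMod.map_smul ((ρ γ).toAddMonoidHom) c y]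
      exact S.smul_mem c ih
  have hSW : ∀ x ∈ S, x ∈ W := by
    intro x hx
    induction hx using Submodule.span_induction with
    | mem y hy => obtain ⟨δ, rfl⟩ := hy; exact hinv δ v hv
    | zero => exact W.zero_mem
    | add y z _ _ ihy ihz => exact add_mem ihy ihz
    | smul c y _ ih =>
      rw [← ZMod.natCast_zmod_val c, Nat.cast_smul_eq_nsmul (ZMod p)]
      exact nsmul_mem ih _
  letI : MulAction Γ S :=
    { smul := fun γ x => ⟨ρ γ x, hstable γ x x.2⟩
      one_smul := fun x => Subtype.ext (show ρ 1 x = x by simp)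
      mul_smul := fun γ δ x => Subtype.ext (show ρ (γ * δ) x = ρ γ (ρ δ x) by simp [map_mul]) }
  have hdvd : p ∣ Nat.card S := by
    rw [Module.natCard_eq_pow_finrank (K := ZMod p), Nat.card_zmod]
    refine dvd_pow_self p fun h => hv0 ?_
    haveI : Subsingleton S := Module.finrank_zero_iff.1 h
    exact congrArg Subtype.val (Subsingleton.elim (⟨v, hvS⟩ : S) 0)
  obtain ⟨x, hx, hne⟩ := hΓ.exists_fixed_point_of_prime_dvd_card_of_fixed_point S hdvd
    (a := (0 : S)) (fun γ => Subtype.ext (show ρ γ (0 : V) = 0 by simp))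
  exact ⟨x, hSW x x.2, fun h => hne (Subtype.ext h).symm,
    fun γ => congrArg Subtype.val (hx γ)⟩

end Fixed

variable {G : Type*} [Group G]

/-- The two-sided translation. -/
def trans (γ : G × G) : MonoidAlgebra k G →ₗ[k] MonoidAlgebra k G :=
  (LinearMap.mulRight k (single γ.2⁻¹ (1 : k))).comp (LinearMap.mulLeft k (single γ.1 (1 : k)))

theorem trans_apply (γ : G × G) (v : MonoidAlgebra k G) :
    trans γ v = single γ.1 1 * v * single γ.2⁻¹ 1 := rfl

theorem trans_mul (γ δ : G × G) (v : MonoidAlgebra k G) :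
    trans (γ * δ) v = trans γ (trans δ v) := by
  simp only [trans_apply, Prod.fst_mul, Prod.snd_mul, mul_inv_rev]
  rw [show single (γ.1 * δ.1) (1 : k) = single γ.1 1 * single δ.1 1 by simp [single_mul_single],
    show single (δ.2⁻¹ * γ.2⁻¹) (1 : k) = single δ.2⁻¹ 1 * single γ.2⁻¹ 1 by
      simp [single_mul_single]]
  simp only [mul_assoc]

theorem trans_one (v : MonoidAlgebra k G) : trans (1 : G × G) v = v := by
  simp [trans_apply, ← one_def]

theorem coeff_trans (γ : G × G) (v : MonoidAlgebra k G) (g : G) :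
    (trans γ v).coeff (γ.1 * g * γ.2⁻¹) = v.coeff g := by
  induction v using MonoidAlgebra.induction_linear with
  | zero => simp
  | add a b ha hb =>
    simp only [map_add, MonoidAlgebra.coeff_add, Finsupp.add_apply, ha, hb]
  | single h r =>
    rw [trans_apply, single_mul_single, single_mul_single, one_mul, mul_one]
    by_cases hh : h = g
    · subst hh; simp
    · simp [Finsupp.single_apply, hh]

theorem conjA_eq (u : G) (x : MonoidAlgebra k G) :
    conjA u x = single u 1 * x * single u⁻¹ 1 := by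
  induction x using MonoidAlgebra.induction_linear with
  | zero => simp
  | add a b ha hb => simp [ha, hb, mul_add, add_mul]
  | single h r => simp [single_mul_single]

variable (D : Subgroup G)

/-- The diagonal of `D`. -/
def diagSub : Subgroup (G × G) := D.map ((MonoidHom.id G).prod (MonoidHom.id G))

theorem mem_diagSub {x : G × G} : x ∈ diagSub D ↔ x.1 ∈ D ∧ x.2 = x.1 := by
  constructor
  · rintro ⟨d, hd, rfl⟩; exact ⟨hd, rfl⟩
  · rintro ⟨h1, h2⟩; exact ⟨x.1, h1, Prod.ext rfl h2.symm⟩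

/-- The element attached to a coset. -/
def kap (z : (G × G) ⧸ diagSub D) : G := z.out.1 * z.out.2⁻¹

theorem kap_mk (x : G × G) : kap D (QuotientGroup.mk x) = x.1 * x.2⁻¹ := by
  obtain ⟨⟨d, hd⟩, hout⟩ := QuotientGroup.mk_out_eq_mul (diagSub D) x
  obtain ⟨-, h2⟩ := (mem_diagSub D).1 hd
  rw [kap, hout]
  simp only [Prod.fst_mul, Prod.snd_mul, h2]
  group

theorem kap_smul (γ : G × G) (z : (G × G) ⧸ diagSub D) :
    kap D (γ • z) = γ.1 * kap D z * γ.2⁻¹ := by
  induction z using QuotientGroup.induction_on with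
  | _ x =>
    rw [show γ • (QuotientGroup.mk x : (G × G) ⧸ diagSub D) = QuotientGroup.mk (γ * x) from rfl,
      kap_mk, kap_mk]
    simp [mul_assoc]

theorem smul_mk_eq_iff (γ x : G × G) :
    γ • (QuotientGroup.mk x : (G × G) ⧸ diagSub D) = QuotientGroup.mk x ↔
      x.1⁻¹ * γ.1 * x.1 ∈ D ∧ x.2⁻¹ * γ.2 * x.2 = x.1⁻¹ * γ.1 * x.1 := by
  rw [show γ • (QuotientGroup.mk x : (G × G) ⧸ diagSub D) = QuotientGroup.mk (γ * x) from rfl,
    eq_comm, QuotientGroup.eq, mem_diagSub]
  simp [mul_assoc]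

variable (a0 : MonoidAlgebra k G)

/-- The term attached to a coset. -/
def term (z : (G × G) ⧸ diagSub D) : MonoidAlgebra k G := trans z.out a0

theorem term_mk (ha : a0 ∈ fixedBy k D) (x : G × G) :
    term D a0 (QuotientGroup.mk x) = trans x a0 := by
  obtain ⟨⟨d, hd⟩, hout⟩ := QuotientGroup.mk_out_eq_mul (diagSub D) x
  obtain ⟨hd1, h2⟩ := (mem_diagSub D).1 hd
  rw [term, hout, trans_mul]
  congr 1
  rw [trans_apply, h2, ← conjA_eq]
  exact ha _ hd1

theorem term_smul (ha : a0 ∈ fixedBy k D) (γ : G × G) (z : (G × G) ⧸ diagSub D) :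
    term D a0 (γ • z) = trans γ (term D a0 z) := by
  induction z using QuotientGroup.induction_on with
  | _ x =>
    rw [show γ • (QuotientGroup.mk x : (G × G) ⧸ diagSub D) = QuotientGroup.mk (γ * x) from rfl,
      term_mk D a0 ha, term_mk D a0 ha, trans_mul]

variable [Finite G]

/-- Multiplication by a trace is a sum over the cosets of the diagonal. -/
theorem mul_relTr_eq_sum [Fintype ((G × G) ⧸ diagSub D)] (ha : a0 ∈ fixedBy k D)
    (v : MonoidAlgebra k G) :
    v * relTr D ⊤ a0 = ∑ z : (G × G) ⧸ diagSub D, v.coeff (kap D z) • term D a0 z := by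
  classical
  haveI := Fintype.ofFinite G
  haveI := Fintype.ofFinite (↥(⊤ : Subgroup G) ⧸ D.subgroupOf ⊤)
  let Φ : G × (↥(⊤ : Subgroup G) ⧸ D.subgroupOf ⊤) → (G × G) ⧸ diagSub D := fun q =>
    QuotientGroup.mk (q.1 * ((q.2.out : (⊤ : Subgroup G)) : G),
      ((q.2.out : (⊤ : Subgroup G)) : G))
  have hΦ : Function.Bijective Φ := by
    constructor
    · rintro ⟨g, q⟩ ⟨g', q'⟩ h
      obtain ⟨h1, h2⟩ := (mem_diagSub D).1 (QuotientGroup.eq.1 h)
      simp only [Prod.inv_mk, Prod.mk_mul_mk] at h1 h2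
      set x := ((q.out : (⊤ : Subgroup G)) : G) with hx
      set x' := ((q'.out : (⊤ : Subgroup G)) : G) with hx'
      have hg : g' = g := by
        calc g' = g' * x' * x'⁻¹ := by group
          _ = g * x * ((g * x)⁻¹ * (g' * x')) * x'⁻¹ := by group
          _ = g * x * (x⁻¹ * x') * x'⁻¹ := by rw [← h2]
          _ = g := by group
      subst hg
      refine Prod.ext rfl ?_
      rw [← QuotientGroup.out_eq' q, ← QuotientGroup.out_eq' q', QuotientGroup.eq,
        Subgroup.mem_subgroupOf]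
      simpa [hx, hx', mul_assoc] using h1
    · intro z
      induction z using QuotientGroup.induction_on with
      | _ x =>
        refine ⟨(x.1 * x.2⁻¹, QuotientGroup.mk ⟨x.2, Subgroup.mem_top _⟩), ?_⟩
        obtain ⟨⟨d, hd⟩, hout⟩ := QuotientGroup.mk_out_eq_mul (D.subgroupOf ⊤)
          (⟨x.2, Subgroup.mem_top _⟩ : (⊤ : Subgroup G))
        have hd' : (d : G) ∈ D := Subgroup.mem_subgroupOf.1 hd
        simp only [Φ, hout, Subgroup.coe_mul]
        rw [QuotientGroup.eq, mem_diagSub]
        simp [mul_assoc, hd']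
  rw [relTr_apply, ← Fintype.sum_bijective Φ hΦ _ _ fun _ => rfl, Fintype.sum_prod_type]
  have hv : ∑ g : G, single g (v.coeff g) = v := by
    refine MonoidAlgebra.ext (Finsupp.ext fun x => ?_)
    rw [coeff_finsetSum_apply, Finset.sum_eq_single x]
    · simp
    · intro g _ hg; simp [hg]
    · exact fun h => absurd (Finset.mem_univ _) h
  conv_lhs => rw [← hv]
  rw [Finset.sum_mul]
  refine Finset.sum_congr rfl fun g _ => ?_
  rw [Finset.mul_sum]
  refine Finset.sum_congr rfl fun q _ => ?_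
  simp only [Φ]
  rw [kap_mk, term_mk D a0 ha, mul_inv_cancel_right, trans_apply, conjA_eq]
  rw [show single g (v.coeff g) = v.coeff g • single g (1 : k) by simp, smul_mul_assoc]
  congr 1
  rw [← mul_assoc, ← mul_assoc]
  congr 2
  simp [single_mul_single]

variable {D a0} {e : MonoidAlgebra k G} {p : ℕ} [Fact p.Prime] [CharP k p]

section Perm

variable (hec : ∀ g : G, Commute (single g (1 : k)) e) (hee : e * e = e) (he0 : e ≠ 0)
  (ha : a0 ∈ fixedBy k D) (htr : relTr D ⊤ a0 = e) (hDp : IsPGroup p D)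
  {P : Subgroup G} (hP : IsPGroup p P)
  (hdim : Module.finrank k (LinearMap.range (LinearMap.mulRight k e)) * Nat.card D ≤
    Nat.card P * Nat.card P)
include hec hee he0 ha htr hDp hP hdim

/-- A subgroup of `P × P` fixing an element of the block and a point with nonzero coefficient
fixes a coset in one orbit. -/
theorem exists_fixed_coset : ∃ x0 : G × G, ∀ R : Subgroup (G × G), R ≤ P.prod P →
    ∀ w : MonoidAlgebra k G, w * e = w → (∀ r ∈ R, trans r w = w) →
    ∀ g : G, w.coeff g ≠ 0 → (∀ r ∈ R, r.1 * g * r.2⁻¹ = g) →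
    ∃ γ ∈ P.prod P, ∀ r ∈ R, r • (γ • (QuotientGroup.mk x0 : (G × G) ⧸ diagSub D)) =
      γ • (QuotientGroup.mk x0 : (G × G) ⧸ diagSub D) := by
  classical
  haveI := Fintype.ofFinite G
  haveI := Fintype.ofFinite ((G × G) ⧸ diagSub D)
  haveI : FiniteDimensional k (MonoidAlgebra k G) :=
    Module.Finite.of_basis (MonoidAlgebra.basis G k)
  set Γ : Subgroup (G × G) := P.prod P with hΓ
  have hΓp : IsPGroup p Γ := by
    obtain ⟨n, hn⟩ := IsPGroup.iff_card.1 hP
    refine IsPGroup.of_card (n := n + n) ?_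
    rw [Nat.card_congr (Subgroup.prodEquiv P P).toEquiv, Nat.card_prod, hn, pow_add]
  have htrans_e : ∀ (γ : G × G) (v : MonoidAlgebra k G), trans γ v * e = trans γ (v * e) := by
    intro γ v
    rw [trans_apply, trans_apply, mul_assoc (single γ.1 (1 : k) * v), (hec _).eq]
    simp only [mul_assoc]
  -- an invariant functional of the block
  let ρ : Γ →* (Module.Dual k (MonoidAlgebra k G) →ₗ[k] Module.Dual k (MonoidAlgebra k G)) :=
    { toFun := fun γ => LinearMap.lcomp k k (trans ((γ : G × G)⁻¹))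
      map_one' := by
        refine LinearMap.ext fun l => LinearMap.ext fun v => ?_
        show l (trans ((1 : G × G)⁻¹) v) = l v
        rw [inv_one, trans_one]
      map_mul' := fun γ δ => by
        refine LinearMap.ext fun l => LinearMap.ext fun v => ?_
        show l (trans ((γ * δ : Γ) : G × G)⁻¹ v) =
          l (trans (δ : G × G)⁻¹ (trans (γ : G × G)⁻¹ v))
        rw [Subgroup.coe_mul, mul_inv_rev, trans_mul] }
  let W : Submodule k (Module.Dual k (MonoidAlgebra k G)) :=
    { carrier := {l | ∀ v, l (v * e) = l v}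
      add_mem' := fun h1 h2 v => by simp [h1 v, h2 v]
      zero_mem' := fun v => by simp
      smul_mem' := fun c l h v => by simp [h v] }
  have hW : W ≠ ⊥ := by
    obtain ⟨f, hf⟩ : ∃ f : Module.Dual k (MonoidAlgebra k G), f e ≠ 0 := by
      by_contra h
      push Not at h
      exact he0 ((Module.forall_dual_apply_eq_zero_iff k e).1 h)
    intro h
    have hmem : f.comp (LinearMap.mulRight k e) ∈ W := fun v => by
      show f (v * e * e) = f (v * e)
      rw [mul_assoc, hee]
    rw [h, Submodule.mem_bot] at hmem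
    exact hf (by simpa [hee] using LinearMap.congr_fun hmem e)
  obtain ⟨l, hlW, hl0, hlfix⟩ := exists_fixed_ne_zero (k := k) hΓp ρ hW fun γ m hm v => by
    show m (trans _ (v * e)) = m (trans _ v)
    rw [← htrans_e, hm]
  have hlinv : ∀ γ ∈ Γ, ∀ v, l (trans γ v) = l v := by
    intro γ hγ v
    have := LinearMap.congr_fun (hlfix ⟨γ⁻¹, inv_mem hγ⟩) v
    simpa [ρ] using this
  -- the orbit
  obtain ⟨z0, hz0⟩ : ∃ z0 : (G × G) ⧸ diagSub D, ∃ v : MonoidAlgebra k G, v * e = v ∧
      ∑ z : MulAction.orbit Γ z0, v.coeff (kap D z) ≠ 0 := by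
    by_contra h
    push Not at h
    apply hl0
    refine LinearMap.ext fun v => ?_
    rw [← hlW v, ← hlW (v * e), ← htr, mul_relTr_eq_sum D a0 ha, map_sum, LinearMap.zero_apply]
    rw [← Finset.sum_fiberwise Finset.univ
      (fun z : (G × G) ⧸ diagSub D => Quotient.mk (MulAction.orbitRel Γ ((G × G) ⧸ diagSub D)) z)]
    refine Finset.sum_eq_zero fun q _ => ?_
    induction q using Quotient.inductionOn with
    | h z0 =>
      have hset : ∀ z, Quotient.mk (MulAction.orbitRel Γ ((G × G) ⧸ diagSub D)) z =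
          Quotient.mk (MulAction.orbitRel Γ ((G × G) ⧸ diagSub D)) z0 ↔
            z ∈ MulAction.orbit Γ z0 := fun z => Quotient.eq.trans MulAction.orbitRel_apply
      rw [Finset.sum_congr rfl (g := fun z => l (term D a0 z0) * (v * relTr D ⊤ a0).coeff (kap D z))
        fun z hz => ?_, ← Finset.mul_sum, Finset.sum_subtype
          (p := fun z => z ∈ MulAction.orbit Γ z0) _ (fun z => by simp [hset])]
      · rw [h z0 (v * relTr D ⊤ a0) (by rw [htr, mul_assoc, hee]), mul_zero]
      · obtain ⟨γ, rfl⟩ := (hset z).1 (Finset.mem_filter.1 hz).2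
        rw [map_smul, smul_eq_mul, mul_comm]
        congr 1
        show l (term D a0 ((γ : G × G) • z0)) = l (term D a0 z0)
        rw [term_smul D a0 ha, hlinv _ γ.2]
  obtain ⟨x0, rfl⟩ := QuotientGroup.mk_surjective z0
  refine ⟨x0, ?_⟩
  set O := MulAction.orbit Γ (QuotientGroup.mk x0 : (G × G) ⧸ diagSub D) with hO
  -- the coefficient map
  set V : Submodule k (MonoidAlgebra k G) := LinearMap.range (LinearMap.mulRight k e) with hV
  have hVe : ∀ v : V, (v : MonoidAlgebra k G) * e = v := by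
    rintro ⟨_, u, rfl⟩
    show u * e * e = u * e
    rw [mul_assoc, hee]
  have hmemV : ∀ v : MonoidAlgebra k G, v * e = v → v ∈ V := fun v hv => ⟨v, hv⟩
  let F : V →ₗ[k] (O → k) :=
    { toFun := fun v z => (v : MonoidAlgebra k G).coeff (kap D z)
      map_add' := fun u v => funext fun z => by simp
      map_smul' := fun c v => funext fun z => by simp }
  have hequiv : ∀ (γ : Γ) (v : MonoidAlgebra k G) (z : O),
      (trans (γ : G × G) v).coeff (kap D ((γ • z : O) : (G × G) ⧸ diagSub D)) =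
        v.coeff (kap D z) := fun γ v z => by
    rw [MulAction.orbit.coe_smul, show γ • (z : (G × G) ⧸ diagSub D) = (γ : G × G) • z.1 from rfl,
      kap_smul, coeff_trans]
  have hsurj : LinearMap.range F = ⊤ := by
    by_contra hne
    let ρ' : Γ →* (Module.Dual k (O → k) →ₗ[k] Module.Dual k (O → k)) :=
      { toFun := fun γ => LinearMap.lcomp k k
          { toFun := fun f z => f (γ • z)
            map_add' := fun _ _ => rfl
            map_smul' := fun _ _ => rfl }
        map_one' := LinearMap.ext fun l => LinearMap.ext fun f => by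
          show l (fun z => f ((1 : Γ) • z)) = l f
          simp only [one_smul]
        map_mul' := fun γ δ => LinearMap.ext fun l => LinearMap.ext fun f => by
          show l (fun z => f ((γ * δ) • z)) = l (fun z => f (γ • δ • z))
          simp only [mul_smul] }
    obtain ⟨ψ, hψW, hψ0, hψfix⟩ := exists_fixed_ne_zero (k := k) hΓp ρ'
      (W := (LinearMap.range F).dualAnnihilator)
      (fun h => hne (Subspace.dualAnnihilator_inj.1 (h.trans Submodule.dualAnnihilator_top.symm)))
      (fun γ m hm => by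
        rw [Submodule.mem_dualAnnihilator] at hm ⊢
        rintro _ ⟨v, rfl⟩
        have hmv := hm (F ⟨trans ((γ : G × G)⁻¹) v, hmemV _ (by rw [htrans_e, hVe])⟩) ⟨_, rfl⟩
        show m _ = 0
        convert hmv using 2
        funext z
        show (v : MonoidAlgebra k G).coeff (kap D ((γ • z : O) : (G × G) ⧸ diagSub D)) = _
        rw [show (F ⟨trans ((γ : G × G)⁻¹) v, _⟩) z =
          (trans ((γ : G × G)⁻¹) (v : MonoidAlgebra k G)).coeff (kap D z) from rfl]
        conv_rhs => rw [← inv_smul_smul γ z]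
        exact (hequiv γ⁻¹ (v : MonoidAlgebra k G) (γ • z)).symm)
    rw [Submodule.mem_dualAnnihilator] at hψW
    obtain ⟨z1⟩ : Nonempty O := ⟨⟨_, MulAction.mem_orbit_self _⟩⟩
    have hconst : ∀ z : O, ψ (Pi.single z 1) = ψ (Pi.single z1 1) := by
      intro z
      obtain ⟨γ, rfl⟩ := MulAction.exists_smul_eq Γ z1 z
      conv_rhs => rw [← LinearMap.congr_fun (hψfix γ⁻¹) (Pi.single z1 1)]
      show _ = ψ (fun w => (Pi.single z1 1 : O → k) (γ⁻¹ • w))
      congr 1
      funext w
      simp only [Pi.single_apply, inv_smul_eq_iff]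
    have hψsum : ∀ f : O → k, ψ f = ψ (Pi.single z1 1) * ∑ z, f z := fun f => by
      conv_lhs => rw [← Finset.univ_sum_single f]
      rw [map_sum, Finset.mul_sum]
      refine Finset.sum_congr rfl fun z _ => ?_
      rw [show (Pi.single z (f z) : O → k) = f z • Pi.single z 1 by
        rw [← Pi.single_smul, smul_eq_mul, mul_one], map_smul, hconst, smul_eq_mul, mul_comm]
    obtain ⟨v, hv, hsum⟩ := hz0
    have h0 := hψW (F ⟨v, hmemV v hv⟩) ⟨_, rfl⟩
    rw [hψsum] at h0
    have hc := (mul_eq_zero.1 h0).resolve_right hsum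
    exact hψ0 (LinearMap.ext fun f => by rw [hψsum, hc, zero_mul, LinearMap.zero_apply])
  -- the orbit is large
  have hstab : Nat.card (MulAction.stabilizer Γ (QuotientGroup.mk x0 : (G × G) ⧸ diagSub D)) ≤
      Nat.card D := by
    have hle : (MulAction.stabilizer Γ (QuotientGroup.mk x0 : (G × G) ⧸ diagSub D)).map Γ.subtype ≤
        (diagSub D).map (MulAut.conj x0).toMonoidHom := by
      rintro _ ⟨γ, hγ, rfl⟩
      refine ⟨x0⁻¹ * (γ : G × G) * x0, ?_, by simp [mul_assoc]⟩
      exact (mem_diagSub D).2 ((smul_mk_eq_iff D (γ : G × G) x0).1 hγ)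
    calc _ = Nat.card ((MulAction.stabilizer Γ
            (QuotientGroup.mk x0 : (G × G) ⧸ diagSub D)).map Γ.subtype) :=
          (Subgroup.card_map_of_injective Γ.subtype_injective).symm
      _ ≤ _ := Subgroup.card_le_of_le hle
      _ = _ := by
        rw [Subgroup.card_map_of_injective (MulAut.conj x0).injective, diagSub,
          Subgroup.card_map_of_injective (fun u v h => congrArg Prod.fst h)]
  have hVO : Module.finrank k V ≤ Fintype.card O := by
    refine Nat.le_of_mul_le_mul_right (hdim.trans ?_) (Nat.card_pos (α := D))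
    rw [← Nat.card_prod, ← Nat.card_congr (Subgroup.prodEquiv P P).toEquiv,
      show Nat.card (P.prod P) = Nat.card Γ from rfl, ← Nat.card_eq_fintype_card (α := O),
      ← Subgroup.index_mul_card (MulAction.stabilizer Γ
        (QuotientGroup.mk x0 : (G × G) ⧸ diagSub D)), MulAction.index_stabilizer,
      Nat.card_coe_set_eq]
    exact Nat.mul_le_mul_left _ hstab
  have hFinj : Function.Injective F := by
    rw [← LinearMap.ker_eq_bot]
    have h := F.finrank_range_add_finrank_ker
    rw [hsurj, finrank_top, Module.finrank_fintype_fun_eq_card] at h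
    exact Submodule.finrank_eq_zero.1 (by omega)
  let Fe : V ≃ₗ[k] (O → k) := LinearEquiv.ofBijective F ⟨hFinj, LinearMap.range_eq_top.1 hsurj⟩
  -- fixed points
  intro R hR w hw hwfix g hg hgfix
  by_contra hno
  push Not at hno
  apply hg
  haveI : Finite (R.subgroupOf Γ) := inferInstance
  have hRp : IsPGroup p (R.subgroupOf Γ) := hΓp.to_subgroup _
  let f : O → k := fun z =>
    F ⟨w, hmemV w hw⟩ z * ((Fe.symm (Pi.single z 1) : V) : MonoidAlgebra k G).coeff g
  have hwsum : w.coeff g = ∑ z, f z := by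
    have h1 : (⟨w, hmemV w hw⟩ : V) = Fe.symm (∑ z, F ⟨w, hmemV w hw⟩ z • Pi.single z 1) := by
      rw [LinearEquiv.eq_symm_apply]
      funext z
      rw [show Fe ⟨w, hmemV w hw⟩ z = F ⟨w, hmemV w hw⟩ z from rfl]
      simp [Pi.single_apply]
    have h2 := congrArg (fun v : V => (v : MonoidAlgebra k G).coeff g) h1
    simp only [map_sum, map_smul, Submodule.coe_sum, Submodule.coe_smul, coeff_finsetSum_apply,
      coeff_smul_apply] at h2
    exact h2
  rw [hwsum]
  have hf : ∀ (r : R.subgroupOf Γ) (z : O), f (r • z) = f z := by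
    intro r z
    have hr : ((r : Γ) : G × G) ∈ R := r.2
    simp only [f]
    congr 1
    · show w.coeff (kap D ((((r : Γ) • z : O)) : (G × G) ⧸ diagSub D)) = w.coeff (kap D z)
      conv_lhs => rw [← hwfix _ hr]
      exact hequiv (r : Γ) w z
    · set u : V := Fe.symm (Pi.single z 1) with hu
      have hu' : Fe ⟨trans ((r : Γ) : G × G) u, hmemV _ (by rw [htrans_e, hVe])⟩ =
          Pi.single ((r : Γ) • z) 1 := by
        funext y
        show (trans ((r : Γ) : G × G) (u : MonoidAlgebra k G)).coeff (kap D y) = _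
        conv_lhs => rw [← smul_inv_smul (r : Γ) y]
        rw [hequiv]
        have h3 : F u ((r : Γ)⁻¹ • y) = (Pi.single z 1 : O → k) ((r : Γ)⁻¹ • y) := by
          rw [show F u = Fe u from rfl, hu, LinearEquiv.apply_symm_apply]
        refine h3.trans ?_
        simp only [Pi.single_apply, inv_smul_eq_iff]
      rw [show (r • z : O) = (r : Γ) • z from rfl, ← hu', LinearEquiv.symm_apply_apply]
      show (trans ((r : Γ) : G × G) (u : MonoidAlgebra k G)).coeff g = _
      conv_lhs => rw [← hgfix _ hr]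
      rw [coeff_trans]
  rw [sum_eq_sum_fixedPoints (R := k) hRp f hf]
  refine Finset.sum_eq_zero fun z hz => ?_
  exfalso
  obtain ⟨γ, hγ⟩ := z.2
  obtain ⟨r, hr, hne⟩ := hno γ γ.2
  apply hne
  have h := congrArg Subtype.val ((Finset.mem_filter.1 hz).2 ⟨⟨r, hR hr⟩, hr⟩)
  have hγ' : (γ : G × G) • (QuotientGroup.mk x0 : (G × G) ⧸ diagSub D) = z := hγ
  rw [hγ']
  exact h

set_option maxHeartbeats 1000000 in
/-- A `p`-regular element normalising a subgroup of `D` that carries the block centralises it. -/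
theorem mem_centralizer_of_normalizer (hDP : D ≤ P)
    (hbrD : ∃ g ∈ Subgroup.centralizer (D : Set G), e.coeff g ≠ 0)
    {Q : Subgroup G} (hQ : Q ≤ D)
    (hbrQ : ∃ g ∈ Subgroup.centralizer (Q : Set G), e.coeff g ≠ 0)
    {t : G} (ht : t ∈ Subgroup.normalizer (Q : Set G)) (htp : ¬ p ∣ orderOf t) :
    t ∈ Subgroup.centralizer (Q : Set G) := by
  classical
  obtain ⟨x0, hfix⟩ := exists_fixed_coset hec hee he0 ha htr hDp hP hdim
  have hefix : ∀ u : G, trans ((u, u) : G × G) e = e := fun u => by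
    rw [trans_apply, (hec u).eq, mul_assoc, single_mul_single, mul_inv_cancel, one_mul, ← one_def,
      mul_one]
  -- the coset fixed by the diagonal of `D`
  obtain ⟨g1, hg1, hg1e⟩ := hbrD
  obtain ⟨γ0, hγ0, hs⟩ := hfix (diagSub D)
    (fun x hx => by
      obtain ⟨h1, h2⟩ := (mem_diagSub D).1 hx
      exact Subgroup.mem_prod.2 ⟨hDP h1, h2 ▸ hDP h1⟩)
    e hee (fun x hx => by
      obtain ⟨-, h2⟩ := (mem_diagSub D).1 hx
      rw [show x = (x.1, x.1) from Prod.ext rfl h2]
      exact hefix _) g1 hg1e (fun x hx => by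
      obtain ⟨h1, h2⟩ := (mem_diagSub D).1 hx
      rw [h2, Subgroup.mem_centralizer_iff.1 hg1 _ h1, mul_inv_cancel_right])
  set s : G × G := γ0 * x0 with hsdef
  have hs' : ∀ u ∈ D, s.1⁻¹ * u * s.1 ∈ D ∧ s.2⁻¹ * u * s.2 = s.1⁻¹ * u * s.1 := fun u hu =>
    (smul_mk_eq_iff D ((u, u) : G × G) s).1 (hs ((u, u) : G × G) ((mem_diagSub D).2 ⟨hu, rfl⟩))
  set c : G := s.1 * s.2⁻¹ with hc
  have hcD : ∀ u ∈ D, c * u = u * c := fun u hu => by
    have h : s.2 * (s.1⁻¹ * u * s.1) * s.2⁻¹ = u := by rw [← (hs' u hu).2]; group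
    calc c * u = c * (s.2 * (s.1⁻¹ * u * s.1) * s.2⁻¹) := by rw [h]
      _ = u * c := by rw [hc]; group
  have hs2 : cj s.2⁻¹ D = D := Subgroup.eq_of_le_of_card_ge (fun y hy => by
      rw [mem_cj, inv_inv] at hy
      have h := hs' _ hy
      rw [← h.2] at h
      simpa [mul_assoc] using h.1)
    (le_of_eq (Subgroup.card_map_of_injective (MulAut.conj s.2⁻¹).injective).symm)
  -- the twisted subgroup
  obtain ⟨g0, hg0, hg0e⟩ := hbrQ
  let R : Subgroup (G × G) := Q.map ((MulAut.conj t).toMonoidHom.prod (MonoidHom.id G))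
  have hQP : Q ≤ P := hQ.trans hDP
  obtain ⟨γ, hγ, hr⟩ := hfix R
    (by
      rintro _ ⟨u, hu, rfl⟩
      exact Subgroup.mem_prod.2 ⟨hQP ((Subgroup.mem_normalizer_iff.1 ht u).1 hu), hQP hu⟩)
    (single t 1 * e) (by rw [mul_assoc, hee])
    (by
      rintro _ ⟨u, -, rfl⟩
      show trans ((t * u * t⁻¹, u) : G × G) (single t 1 * e) = _
      conv_rhs => rw [← hefix u]
      simp only [trans_apply, ← mul_assoc, single_mul_single, one_mul]
      rw [show t * u * t⁻¹ * t = t * u by group])
    (t * g0) (by simpa using hg0e)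
    (by
      rintro _ ⟨u, hu, rfl⟩
      show t * u * t⁻¹ * (t * g0) * u⁻¹ = t * g0
      rw [show t * u * t⁻¹ * (t * g0) * u⁻¹ = t * (u * g0 * u⁻¹) by group,
        Subgroup.mem_centralizer_iff.1 hg0 u hu, mul_inv_cancel_right])
  set η : G × G := γ * γ0⁻¹ with hη
  obtain ⟨hη1, hη2⟩ : η.1 ∈ P ∧ η.2 ∈ P :=
    Subgroup.mem_prod.1 (mul_mem hγ (inv_mem hγ0))
  have hr' : ∀ u ∈ Q, (η * s).1⁻¹ * (t * u * t⁻¹) * (η * s).1 ∈ D ∧
      (η * s).2⁻¹ * u * (η * s).2 = (η * s).1⁻¹ * (t * u * t⁻¹) * (η * s).1 := fun u hu => by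
    refine (smul_mk_eq_iff D ((t * u * t⁻¹, u) : G × G) (η * s)).1 ?_
    rw [show η * s = γ * x0 by rw [hη, hsdef]; group]
    exact hr _ ⟨u, hu, rfl⟩
  set w : G := η.1 * η.2⁻¹ with hwdef
  have hconj : ∀ u ∈ Q, t * u * t⁻¹ = w * u * w⁻¹ := fun u hu => by
    obtain ⟨hmem, h2⟩ := hr' u hu
    rw [← h2] at hmem
    have hD' : η.2⁻¹ * u * η.2 ∈ D := by
      have h : s.2⁻¹ * (η.2⁻¹ * u * η.2) * s.2 ∈ D := by simpa [mul_assoc] using hmem
      rw [← hs2, mem_cj, inv_inv] at h
      simpa [mul_assoc] using h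
    have hcc := hcD _ hD'
    simp only [Prod.fst_mul, Prod.snd_mul] at h2
    calc t * u * t⁻¹ = η.1 * s.1 * ((η.1 * s.1)⁻¹ * (t * u * t⁻¹) * (η.1 * s.1)) *
          (η.1 * s.1)⁻¹ := by group
      _ = η.1 * s.1 * ((η.2 * s.2)⁻¹ * u * (η.2 * s.2)) * (η.1 * s.1)⁻¹ := by rw [h2]
      _ = η.1 * (c * (η.2⁻¹ * u * η.2) * c⁻¹) * η.1⁻¹ := by rw [hc]; group
      _ = w * u * w⁻¹ := by rw [hcc, mul_inv_cancel_right, hwdef]; group
  have hwP : w ∈ P := mul_mem hη1 (inv_mem hη2)
  have hpow : ∀ n : ℕ, ∀ u ∈ Q, t ^ n * u * (t ^ n)⁻¹ = w ^ n * u * (w ^ n)⁻¹ := by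
    intro n
    induction n with
    | zero => simp
    | succ n ih =>
      intro u hu
      calc t ^ (n + 1) * u * (t ^ (n + 1))⁻¹ = t ^ n * (t * u * t⁻¹) * (t ^ n)⁻¹ := by
            rw [pow_succ]; group
        _ = w ^ n * (t * u * t⁻¹) * (w ^ n)⁻¹ :=
            ih _ ((Subgroup.mem_normalizer_iff.1 ht u).1 hu)
        _ = w ^ (n + 1) * u * (w ^ (n + 1))⁻¹ := by rw [hconj u hu, pow_succ]; group
  obtain ⟨n, hn⟩ := hP ⟨w, hwP⟩
  have hwn : w ^ p ^ n = 1 := congrArg Subtype.val hn
  have hcop : (p ^ n).Coprime (orderOf t) :=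
    Nat.Coprime.pow_left n (((Fact.out : p.Prime).coprime_iff_not_dvd).2 htp)
  obtain ⟨m, hm⟩ := exists_pow_eq_self_of_coprime hcop
  rw [← hm]
  refine pow_mem (Subgroup.mem_centralizer_iff.2 fun u hu => ?_) m
  have h := hpow (p ^ n) u hu
  rw [hwn, one_mul, inv_one, mul_one] at h
  exact (mul_inv_eq_iff_eq_mul.1 h).symm

end Perm

end CfsgLib.RealChar.MinimalBlock
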